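import Groth.Agent.Old.H20.MaxFinite
import Mathlib.Topology.Semicontinuity.Defs

/-!
Lower semicontinuity of the fibre integral of a positive weighting of a separated locally
quasi-finite morphism with finite fibres.
-/

set_option autoImplicit false
universe u

namespace Groth.Agent.Old.H18.LowerSC

open AlgebraicGeometry CategoryTheory Limits
open Groth.Agent.Flat2F
open FibreIntegral GeomPts ResSplit Split WeightLoc FibrePow MaxLocus Topology
open Groth.Agent.Old.H20.MaxFinite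

variable {X Y : Scheme.{u}}

/-- If the morphism is split at all the points over `y`, the fibre integral is bounded below by its
value at `y` in a neighbourhood of `y`. -/
theorem exists_nhd_le_of_split (f : X ⟶ Y) [LocallyQuasiFinite f] [LocallyOfFiniteType f]
    [IsSeparated f] (hfin : ∀ y : Y, (f ⁻¹' {y}).Finite) (w : X → ℤ) (hw : MoreMor.IsWeighting f w)
    (hpos : ∀ x, 0 < w x) (y : Y) (hs : ∀ x, f x = y → Split f x) :
    ∃ N : Y.Opens, y ∈ N ∧
      ∀ y' ∈ N, MoreMor.fibreIntegral f w y ≤ MoreMor.fibreIntegral f w y' := by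
  let ι := f ⁻¹' {y}
  have : Finite ι := hfin y
  choose U hU hUf hUu using fun x : ι => hs x.1 x.2
  have hUcl : ∀ i, IsClosed (U i : Set X) := fun i => isClosed_of_isFinite f (U i)
  have huniq : ∀ (i : ι) (x : X), x ∈ U i → f x = y → x = i.1 := by
    intro i x hx hxy
    have h1 := hUu i
    rw [show f i.1 = y from i.2] at h1
    exact h1.eq hx (hU i) hxy i.2
  have hB : ∀ i j : ι, IsClosed (f '' ((U i : Set X) ∩ (U j : Set X))) := by
    intro i j
    have h1 : f '' ((U i : Set X) ∩ (U j : Set X)) = ((U i).ι ≫ f) '' ((U i).ι ⁻¹' (U j : Set X)) := by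
      ext z
      constructor
      · rintro ⟨x, ⟨hi, hj⟩, rfl⟩
        exact ⟨⟨x, hi⟩, hj, rfl⟩
      · rintro ⟨x, hx, rfl⟩
        exact ⟨(U i).ι x, ⟨ι_apply_mem _ _, hx⟩, rfl⟩
    rw [h1]
    exact ((U i).ι ≫ f).isClosedMap _ ((hUcl j).preimage (U i).ι.continuous)
  have hyB : ∀ i j : ι, i ≠ j → y ∉ f '' ((U i : Set X) ∩ (U j : Set X)) := by
    rintro i j hij ⟨x, ⟨hi, hj⟩, hx⟩
    exact hij (Subtype.ext ((huniq i x hi hx).symm.trans (huniq j x hj hx)))
  have hloc : ∀ i, IsLocallyConstant (MoreMor.fibreIntegral ((U i).ι ≫ f) (fun u => w ((U i).ι u))) :=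
    fun i => isLocallyConstant_of_isPullback (IsPullback.id_horiz f) hw (U i)
  let N₁ : Set Y := ⋂ (i : ι), ⋂ (j : {j : ι // i ≠ j}), (f '' ((U i : Set X) ∩ (U j : Set X)))ᶜ
  have hN₁ : IsOpen N₁ := isOpen_iInter_of_finite fun i => isOpen_iInter_of_finite fun j =>
    (hB i j).isOpen_compl
  let N₂ : Set Y := ⋂ i, {y' | MoreMor.fibreIntegral ((U i).ι ≫ f) (fun u => w ((U i).ι u)) y' =
        MoreMor.fibreIntegral ((U i).ι ≫ f) (fun u => w ((U i).ι u)) y}
  have hN₂ : IsOpen N₂ := isOpen_iInter_of_finite fun i => (hloc i).isOpen_fiber _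
  let N : Y.Opens := ⟨N₁ ∩ N₂, hN₁.inter hN₂⟩
  have hyN : y ∈ N := by
    refine ⟨Set.mem_iInter.mpr fun i => Set.mem_iInter.mpr fun j => hyB i j j.2,
      Set.mem_iInter.mpr fun i => rfl⟩
  have hdisj : ∀ y' ∈ N, ∀ x i j, f x = y' → x ∈ U i → x ∈ U j → i = j := by
    intro y' hy' x i j hx hi hj
    by_contra hij
    have := Set.mem_iInter.mp (Set.mem_iInter.mp hy'.1 i) ⟨j, hij⟩
    exact this ⟨x, ⟨hi, hj⟩, hx⟩
  refine ⟨N, hyN, fun y' hy' => ?_⟩
  have h1 := fibreIntegral_eq_sum f w U y (fun x hx => ⟨⟨x, hx⟩, hU _⟩) (hdisj y hyN)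
  rw [h1, finsum_congr fun i => (Set.mem_iInter.mp hy'.2 i).symm]
  exact sum_le_fibreIntegral' f w (fun x => (hpos x).le) U y' (hfin y') (hdisj y' hy')

/-- The fibre integral is bounded below by its value at `y` in a neighbourhood of `y`. -/
theorem exists_nhd_le (f : X ⟶ Y) [LocallyQuasiFinite f] [LocallyOfFiniteType f]
    [IsSeparated f] (hfin : ∀ y : Y, (f ⁻¹' {y}).Finite) (w : X → ℤ) (hw : MoreMor.IsWeighting f w)
    (hpos : ∀ x, 0 < w x) (y : Y) :
    ∃ N : Y.Opens, y ∈ N ∧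
      ∀ y' ∈ N, MoreMor.fibreIntegral f w y ≤ MoreMor.fibreIntegral f w y' := by
  obtain ⟨V, g, v, hg, hv, H⟩ := exists_splitOver f y (f ⁻¹' {y}) (hfin y)
    (fun x hx => hx)
  have hc := IsPullback.of_hasPullback f g
  have h2 := fun v' => fibreIntegral_baseChange f (pullback.snd f g) (pullback.fst f g) g hc w v'
  obtain ⟨N, hvN, hN⟩ := exists_nhd_le_of_split (pullback.snd f g)
    (fun v' => finite_fibre_baseChange f g v' (hfin _))
    (fun x => w (pullback.fst f g x)) (isWeighting_of_isPullback hc hw) (fun x => hpos _) v (by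
    intro x hx
    refine H x ?_ hx
    change f (pullback.fst f g x) = y
    rw [← Scheme.Hom.comp_apply, pullback.condition, Scheme.Hom.comp_apply, hx, hv])
  refine ⟨⟨g '' N, g.isOpenMap N N.2⟩, ⟨v, hvN, hv⟩, ?_⟩
  rintro _ ⟨v', hv', rfl⟩
  have h3 := hN v' hv'
  have h4 := (h2 v).symm
  rw [hv] at h4
  exact (h4.trans_le h3).trans (h2 v').le

/-- The fibre integral of a positive weighting is lower semicontinuous. -/
theorem lowerSemicontinuous_fibreIntegral (f : X ⟶ Y) [LocallyQuasiFinite f]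
    [LocallyOfFiniteType f] [IsSeparated f] (hfin : ∀ y : Y, (f ⁻¹' {y}).Finite) (w : X → ℤ)
    (hw : MoreMor.IsWeighting f w) (hpos : ∀ x, 0 < w x) :
    LowerSemicontinuous (MoreMor.fibreIntegral f w) := by
  intro y c hc
  obtain ⟨N, hyN, hN⟩ := exists_nhd_le f hfin w hw hpos y
  filter_upwards [N.2.mem_nhds hyN] with y' hy'
  exact lt_of_lt_of_le hc (hN y' hy')

end Groth.Agent.Old.H18.LowerSC
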